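import Cfsg.Agent.Lib.AltModule.P5.M8.Def

/-!
Checks for piece 1 of the certificate.
-/

namespace Cfsg.Agent.AltMod.P5.M8

theorem fix1_1 : mdl.fixOk 5 ((subs.getD 14 ([], [])).1) v1 k1 0 = true := by
  decide +kernel

theorem fix1_2 : mdl.fixOk 5 ((subs.getD 14 ([], [])).2) v1 k1 0 = true := by
  decide +kernel

theorem spin1_0 : mdl.spinOk 5 v1 e1 0 34 = true := by decide +kernel

theorem spin1_len : e1.length = 34 := by decide +kernel

theorem spin1 : ∀ i < (e1.length + 49) / 50,
    mdl.spinOk 5 v1 e1 (50 * i) (min 50 (e1.length - 50 * i)) = true := by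
  rw [spin1_len]
  intro i hi
  interval_cases i
  · exact spin1_0

end Cfsg.Agent.AltMod.P5.M8
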